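import Cfsg.Agent.Comp.H3024.Data

set_option autoImplicit false
set_option maxRecDepth 100000
set_option Elab.async false

namespace Cfsg.Agent.Comp.H3024

theorem s0 : allR J.slpAt 0 6 = true := by decide +kernel
theorem l1 : J.lvlAt L1 [] = true := by decide +kernel
theorem q1_0 : allR (schChk J.E L1 [] J.AB h1 (nat_lit 1) (nat_lit 1)) 0 42 = true := by decide +kernel
theorem l0 : J.lvlAt L0 [L1] = true := by decide +kernel
theorem q0_0 : allR (schChk J.E L0 [L1] J.AB h0 (nat_lit 10) (nat_lit 1023)) 0 41 = true := by decide +kernel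
theorem q0_1 : allR (schChk J.E L0 [L1] J.AB h0 (nat_lit 10) (nat_lit 1023)) 41 31 = true := by decide +kernel

end Cfsg.Agent.Comp.H3024
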