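import Cfsg.Agent.Comp.H3024.Ext

/-! A solvable group of order `3024` with an irreducible character of degree `42`. -/

set_option autoImplicit false
set_option maxRecDepth 100000

namespace Cfsg.Agent.Comp

theorem charDegrees_of_surj {G H : Type*} [Group G] [Group H] (f : G →* H)
    (hf : Function.Surjective f) {d : ℕ} (hd : d ∈ charDegrees H) : d ∈ charDegrees G := by
  obtain ⟨χ, rfl⟩ := hd
  exact ⟨⟨_, Char.irr_comp χ.2 f hf⟩, by simp [charDegree]⟩

namespace H3024

noncomputable section

def gens : ℕ → Equiv.Perm (Fin J.n) := J.pg J.n ci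

theorem hk : 0 < J.E.k := by decide

theorem hpos : 0 < J.n := by decide

theorem hi' (j : ℕ) (hj : j < J.m0) : invChk J.n J.E.k J.E.m (nth J.E.cs j) (nth ci j) = true :=
  all1_spec hi j (Nat.zero_le _) hj

theorem mdl : J.Model (finLst J.n hpos) gens ⊤ where
  hk := hk
  hbl i h := by rw [hbl] at h; exact List.mem_range.1 h
  code j hj := (band_true.1 (hi' j hj)).1
  act j hj i h := permOf_act hpos hk (hi' j hj) i h
  genA _ _ := trivial
  base g _ hg := perm_base hpos (fun i h => by rw [hbl]; exact List.mem_range.2 h) g hg

theorem solvable : Group.IsSolvable (J.G gens) := by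
  have m1 : gens 1 ∈ Subgroup.closure {gens 1, gens 2, gens 3} :=
    Subgroup.subset_closure (by simp)
  have m2 : gens 2 ∈ Subgroup.closure {gens 1, gens 2, gens 3} :=
    Subgroup.subset_closure (by simp)
  have m3 : gens 3 ∈ Subgroup.closure {gens 1, gens 2, gens 3} :=
    Subgroup.subset_closure (by simp)
  have a1 := mdl.rel ra1
  have a2 := mdl.rel ra2
  have a3 := mdl.rel ra3
  have b1 := mdl.rel rb1
  have b2 := mdl.rel rb2
  have b3 := mdl.rel rb3
  have c12 := mdl.rel rc12
  have c13 := mdl.rel rc13
  have c23 := mdl.rel rc23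
  have u := mdl.rel ru
  simp only [wp, one_mul] at a1 a2 a3 b1 b2 b3 c12 c13 c23 u
  have := solvable_closure (gens 0) {gens 1, gens 2, gens 3} (by
    rintro a (rfl | rfl | rfl) b (rfl | rfl | rfl) <;> first | rfl | assumption | symm; assumption)
    (by
      rintro a (rfl | rfl | rfl)
      · rw [a1, mul_inv_cancel_right]; repeat first | assumption | apply Subgroup.mul_mem
      · rw [a2, mul_inv_cancel_right]; repeat first | assumption | apply Subgroup.mul_mem
      · rw [a3, mul_inv_cancel_right]; repeat first | assumption | apply Subgroup.mul_mem)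
    (by
      rintro a (rfl | rfl | rfl)
      · rw [mul_assoc, b1]; simp only [mul_assoc, inv_mul_cancel_left]
        repeat first | assumption | apply Subgroup.mul_mem
      · rw [mul_assoc, b2]; simp only [mul_assoc, inv_mul_cancel_left]
        repeat first | assumption | apply Subgroup.mul_mem
      · rw [mul_assoc, b3]; simp only [mul_assoc, inv_mul_cancel_left]
        repeat first | assumption | apply Subgroup.mul_mem)
  have hle : J.G gens ≤ Subgroup.closure (insert (gens 0) {gens 1, gens 2, gens 3}) := by
    refine (Subgroup.closure_le _).2 ?_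
    rintro _ ⟨j, hj, rfl⟩
    have hj' : j < 5 := hj
    have m0 : gens 0 ∈ Subgroup.closure (insert (gens 0) {gens 1, gens 2, gens 3}) :=
      Subgroup.subset_closure (by simp)
    interval_cases j
    · exact m0
    · exact Subgroup.subset_closure (by simp)
    · exact Subgroup.subset_closure (by simp)
    · exact Subgroup.subset_closure (by simp)
    · rw [SetLike.mem_coe, u]; repeat first | assumption | apply Subgroup.mul_mem
  exact Group.isSolvable_of_isSolvable_injective (Subgroup.inclusion_injective hle)

theorem deg42 : 42 ∈ charDegrees (J.G gens) := by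
  have := finite mdl
  obtain ⟨χ, hχ, e⟩ := Sc.exists_irr' (J := J) (gen := gens) (MonoidHom.id _) (ci := ci)
    (fun _ _ => rfl) hk hi' sc1 sc2 (k := 2) (by decide)
  exact mem_charDegrees hχ e

theorem exists_group : ∃ (H : Type) (_ : Group H) (_ : Fintype H), Group.IsSolvable H ∧
    Nat.card H = 6048 ∧ 42 ∈ charDegrees H := by
  have := finite mdl
  have := solvable
  refine ⟨J.G gens × Multiplicative (ZMod 2), inferInstance, Fintype.ofFinite _, inferInstance, ?_,
    charDegrees_of_surj (MonoidHom.fst _ _) Prod.fst_surjective deg42⟩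
  rw [Nat.card_prod, card mdl]
  simp

end

end H3024

end Cfsg.Agent.Comp
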